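import Cfsg.Agent.CosetEnum.Fi22.U6.Class
import Cfsg.Agent.FischerRecog58.Assemble
import Cfsg.Agent.Classical.Unitary.Simple
import Cfsg.Prelude.Def_CaseTheorems
import Cfsg.Prelude.Def_FischerSpaces

/-!
The data of type M(22) for a group isomorphic to the presented Fischer group Fi22: the class, and
an involution whose centraliser is quasisimple over PSU₆(2) and which is not weakly closed there.
-/

set_option autoImplicit false
set_option linter.style.haveILetI false

namespace CfsgLib.AutLf85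

open Cfsg
open scoped commutatorElement

theorem cent_eq_center {H : Type*} [Group H] (h : Nat.card (Subgroup.center H) = 2) {x : H}
    (hx : x ∈ Subgroup.center H) (h1 : orderOf x = 2) : Subgroup.zpowers x = Subgroup.center H := by
  haveI : Finite (Subgroup.center H) := Nat.finite_of_card_ne_zero (by rw [h]; norm_num)
  exact Subgroup.eq_of_le_of_card_ge (Subgroup.zpowers_le.2 hx) (by rw [h, Nat.card_zpowers, h1])

/-- A non-split double cover of a non-abelian simple group is quasisimple. -/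
theorem quasisimple_of_nonsplit {H K : Type*} [Group H] [Group K] [IsSimpleGroup K]
    (hK : ∃ a b : K, a * b ≠ b * a) (h : IsNonsplitDoubleCover H K) : IsQuasisimple H := by
  obtain ⟨h2, ⟨f⟩, hns⟩ := h
  refine ⟨?_, (f.isSimpleGroup_congr.2 inferInstance)⟩
  set π : H →* K := f.toMonoidHom.comp (QuotientGroup.mk' _)
  have hπ : Function.Surjective π := f.surjective.comp (QuotientGroup.mk'_surjective _)
  have hker : ∀ x, π x = 1 ↔ x ∈ Subgroup.center H := fun x => by
    simp [π, QuotientGroup.eq_one_iff]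
  have hmap : (commutator H).map π = ⊤ := by
    rw [commutator_def, Subgroup.map_commutator, Subgroup.map_top_of_surjective π hπ]
    rw [← commutator_def]
    refine (IsSimpleGroup.eq_bot_or_eq_top_of_normal (commutator K)
      inferInstance).resolve_left fun hb => ?_
    obtain ⟨a, b, hab⟩ := hK
    have hc : ⁅a, b⁆ ∈ commutator K :=
      commutator_def K ▸ Subgroup.commutator_mem_commutator (Subgroup.mem_top a) (Subgroup.mem_top b)
    rw [hb, Subgroup.mem_bot, commutatorElement_eq_one_iff_mul_comm] at hc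
    exact hab hc
  have hdec : ∀ x : H, ∃ c ∈ commutator H, c⁻¹ * x ∈ Subgroup.center H := fun x => by
    obtain ⟨c, hc, hcx⟩ : π x ∈ (commutator H).map π := hmap ▸ Subgroup.mem_top _
    exact ⟨c, hc, (hker _).1 (by rw [map_mul, map_inv, hcx, inv_mul_cancel])⟩
  refine Group.isPerfect_def.2 (eq_top_iff.2 fun x _ => ?_)
  by_cases hz : Subgroup.center H ≤ commutator H
  · obtain ⟨c, hc, hcx⟩ := hdec x
    simpa using mul_mem hc (hz hcx)
  exfalso
  refine hns (commutator H) (Subgroup.isComplement'_of_disjoint_and_mul_eq_univ ?_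
    (Set.eq_univ_of_forall fun y => ?_))
  · rw [Subgroup.disjoint_def]
    intro y hy hy'
    by_contra hy1
    haveI : Finite (Subgroup.center H) := Nat.finite_of_card_ne_zero (by rw [h2]; norm_num)
    refine hz fun w hw => ?_
    haveI : Fact (Nat.Prime 2) := ⟨Nat.prime_two⟩
    have ht := zpowers_eq_top_of_prime_card h2 (g := (⟨y, hy⟩ : Subgroup.center H))
      (fun e => hy1 (congrArg Subtype.val e))
    obtain ⟨i, hi⟩ : (⟨w, hw⟩ : Subgroup.center H) ∈ Subgroup.zpowers (⟨y, hy⟩ : Subgroup.center H) :=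
      ht ▸ Subgroup.mem_top _
    have hi' : y ^ i = w := congrArg Subtype.val hi
    exact hi' ▸ zpow_mem hy' i
  · obtain ⟨c, hc, hcy⟩ := hdec y
    refine ⟨c⁻¹ * y, hcy, c, hc, ?_⟩
    show c⁻¹ * y * c = y
    rw [← Subgroup.mem_center_iff.1 hcy c, mul_inv_cancel_left]

theorem psu_noncomm {F : Type*} [Field F] [Fintype F] (hF : Fintype.card F = 4) :
    IsSimpleGroup (PSU 6 F 2) ∧ ∃ a b : PSU 6 F 2, a * b ≠ b * a := by
  have hF' : Fintype.card F = 2 ^ 2 := by rw [hF]; norm_num
  haveI := CfsgLib.Unitary.isSimpleGroup_PSU hF' (n := 6) (q := 2) (by norm_num) (by norm_num)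
  refine ⟨inferInstance, ?_⟩
  by_contra hcon
  push Not at hcon
  let _ : CommGroup (PSU 6 F 2) := { (inferInstance : Group (PSU 6 F 2)) with mul_comm := hcon }
  have hp := IsSimpleGroup.prime_card (α := PSU 6 F 2)
  have h2 := CfsgLib.ThreeTransp.PSU62.two_pow_dvd_card_PSU hF
  rcases hp.eq_one_or_self_of_dvd 2 (dvd_trans (dvd_pow_self 2 (by norm_num)) h2) with h | h
  · omega
  · rw [← h] at h2
    exact absurd (Nat.le_of_dvd (by norm_num) h2) (by norm_num)

namespace Model

open CfsgLib.CosetEnum CfsgLib.CosetEnum.Fi22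

/-- The label of two letters. -/
def label (x y : ℕ) : ℕ := Spor.coxLabel Spor.Fi22.edges (dec x) (dec y)

theorem gen_mul_pow {x y n : ℕ}
    (h : label x y = n) : (gen x * gen y) ^ n = 1 := by
  subst h
  have hx : dec x ∈ Spor.coxNodes Spor.Fi22.edges := by cases dec x <;> decide
  have hy : dec y ∈ Spor.coxNodes Spor.Fi22.edges := by cases dec y <;> decide
  have h : PresentedGroup.mk (Spor.coxRelators Spor.Fi22.edges ∪ {r | r ∈ Spor.Fi22.extra})
      ((FreeGroup.of (dec x) * FreeGroup.of (dec y)) ^ Spor.coxLabel Spor.Fi22.edges (dec x) (dec y)) = 1 :=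
    PresentedGroup.one_of_mem (Or.inl ⟨_, hx, _, hy, rfl⟩)
  simp only [map_pow, map_mul] at h
  exact h

theorem move_check : allBelow (fun i => Nat.beq (runT Tab.perm.T Tab.perm.L [0] i)
    (runT Tab.perm.T Tab.perm.L [2] i)) 3510 = false := by decide +kernel

theorem g9_eq {x : ℕ} (hx : x < 9) : g9 x = gen x := by simp [g9, letterVal, hx]

theorem gen_ne : gen 0 ≠ gen 2 := by
  intro h
  have hw0 : ∀ x ∈ [0], x < 9 := by simp
  have hw2 : ∀ x ∈ [2], x < 9 := by simp
  have hp : gword perm_ok.sigma [0] = gword perm_ok.sigma [2] := by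
    rw [← pi_gword _ hw0, ← pi_gword _ hw2]
    congr 1
  have hc := move_check
  have ht : allBelow (fun i => Nat.beq (runT Tab.perm.T Tab.perm.L [0] i)
      (runT Tab.perm.T Tab.perm.L [2] i)) 3510 = true := by
    refine (Model.allBelow_iff _ _).2 fun i hi => ?_
    have h1 := perm_ok.gword_inv_apply [0] hw0 ⟨i, hi⟩
    have h2 := perm_ok.gword_inv_apply [2] hw2 ⟨i, hi⟩
    rw [hp] at h1
    rw [show runT Tab.perm.T Tab.perm.L [0] i = runT Tab.perm.T Tab.perm.L [2] i from
      h1.symm.trans h2]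
    exact Nat.beq_refl _
  rw [ht] at hc
  exact Bool.noConfusion hc

theorem conj_of_three {x y : ℕ} (h : label x y = 3) : IsConj (gen x) (gen y) := by
  refine isConj_iff.2 ⟨gen x * gen y, ?_⟩
  have h3 := gen_mul_pow h
  rw [pow_succ, pow_two] at h3
  rw [mul_inv_rev, gen_inv, gen_inv]
  have h4 : gen x * gen y * (gen x * gen y) * gen x = (gen y)⁻¹ := by
    refine eq_inv_of_mul_eq_one_left ?_
    rw [← h3]
    simp only [mul_assoc]
  rw [gen_inv y] at h4
  calc gen x * gen y * gen x * (gen y * gen x)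
      = gen x * gen y * (gen x * gen y) * gen x := by simp only [mul_assoc]
    _ = gen y := h4

/-- The transposition commutes with another of its conjugates. -/
theorem exists_other : ∃ g : Spor.Fi22, g * U6.a0 * g⁻¹ ∈ Subgroup.centralizer ({U6.a0} : Set Spor.Fi22) ∧
    g * U6.a0 * g⁻¹ ≠ U6.a0 := by
  have e0 : U6.a0 = gen 0 := g9_eq (by norm_num)
  obtain ⟨g, hg⟩ := isConj_iff.1 ((conj_of_three (x := 0) (y := 1) (by decide)).trans
    (conj_of_three (x := 1) (y := 2) (by decide)))
  refine ⟨g, ?_, ?_⟩ <;> rw [e0, hg]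
  · rw [Subgroup.mem_centralizer_singleton_iff]
    have h2 := gen_mul_pow (x := 2) (y := 0) (n := 2) (by decide)
    rw [pow_two] at h2
    have := eq_inv_of_mul_eq_one_left h2
    rwa [mul_inv_rev, gen_inv, gen_inv] at this
  · exact fun h => gen_ne h.symm

end Model

theorem centralizer_comap {G L : Type*} [Group G] [Group L] (e : L ≃* G) (d : G) :
    (Subgroup.centralizer ({d} : Set G)).map e.symm.toMonoidHom =
      Subgroup.centralizer ({e.symm d} : Set L) := by
  ext x
  rw [Subgroup.mem_map_equiv, MulEquiv.symm_symm, Subgroup.mem_centralizer_singleton_iff,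
    Subgroup.mem_centralizer_singleton_iff, ← e.injective.eq_iff (a := x * e.symm d), map_mul, map_mul,
    e.apply_symm_apply]

/-- The data of type M(22) for a copy of Fi22. -/
theorem fi22_data {L : Type*} [Group L] [Finite L] (e : L ≃* Spor.Fi22) :
    (∃ E : Set L, IsThreeTranspositionClass E ∧ IsOfTypeM22 L E) ∧
    ∃ d' : L, orderOf d' = 2 ∧ IsQuasisimple ↥(Subgroup.centralizer ({d'} : Set L)) ∧
      (∃ (K : Type) (_ : Field K) (_ : Fintype K), Fintype.card K = 4 ∧
        ∃ _ : ((Subgroup.zpowers d').subgroupOf (Subgroup.centralizer ({d'} : Set L))).Normal,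
          Nonempty (↥(Subgroup.centralizer ({d'} : Set L)) ⧸
            (Subgroup.zpowers d').subgroupOf (Subgroup.centralizer ({d'} : Set L)) ≃* PSU 6 K 2)) ∧
      ∃ g, g * d' * g⁻¹ ∈ Subgroup.centralizer ({d'} : Set L) ∧ g * d' * g⁻¹ ≠ d' := by
  set a := CfsgLib.CosetEnum.Fi22.U6.a0
  set d' := e.symm a with hd'
  obtain ⟨F, iF, iFt, hF, hcov⟩ := CfsgLib.CosetEnum.Fi22.U6.exists_cover_field
    (Subgroup.centralizer ({a} : Set Spor.Fi22)) CfsgLib.CosetEnum.Fi22.U6.centralizer_a0
  have hcov' : IsNonsplitDoubleCover ↥(Subgroup.centralizer ({d'} : Set L)) (PSU 6 F 2) :=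
    CfsgLib.CosetEnum.Fi22.U6.cover_congr ((MulEquiv.subgroupCongr (centralizer_comap e a).symm).trans
      ((Subgroup.centralizer ({a} : Set Spor.Fi22)).equivMapOfInjective e.symm.toMonoidHom
        e.symm.injective).symm) hcov
  obtain ⟨hsimp, hnc⟩ := psu_noncomm hF
  haveI := hsimp
  have hord : orderOf d' = 2 := orderOf_eq_prime
    (by rw [hd', pow_two, ← map_mul, CfsgLib.CosetEnum.Fi22.U6.a0_sq, map_one])
    (fun h => CfsgLib.CosetEnum.Fi22.U6.a0_ne (e.symm.injective (h.trans (map_one _).symm)))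
  have hq := quasisimple_of_nonsplit hnc hcov'
  set C := Subgroup.centralizer ({d'} : Set L)
  have hdC : d' ∈ C := Subgroup.mem_centralizer_singleton_iff.2 rfl
  have hz : (Subgroup.zpowers d').subgroupOf C = Subgroup.center ↥C := by
    rw [← cent_eq_center hcov'.1 (x := (⟨d', hdC⟩ : C))
      (Subgroup.mem_center_iff.2 fun y => Subtype.ext (Subgroup.mem_centralizer_singleton_iff.1 y.2))
      (by rw [← Subgroup.orderOf_coe]; exact hord)]
    ext y
    rw [Subgroup.mem_subgroupOf, Subgroup.mem_zpowers_iff, Subgroup.mem_zpowers_iff]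
    simp [Subtype.ext_iff]
  haveI hn : ((Subgroup.zpowers d').subgroupOf C).Normal := hz.symm ▸ inferInstance
  obtain ⟨ψ⟩ := hcov'.2.1
  have he : Nonempty (↥C ⧸ (Subgroup.zpowers d').subgroupOf C ≃* PSU 6 F 2) :=
    ⟨(QuotientGroup.quotientMulEquivOfEq hz).trans ψ⟩
  obtain ⟨g, hg, hg'⟩ := Model.exists_other
  have hw : ∃ h : L, h * d' * h⁻¹ ∈ C ∧ h * d' * h⁻¹ ≠ d' := by
    have he' : e.symm g * d' * (e.symm g)⁻¹ = e.symm (g * a * g⁻¹) := by
      simp [hd', a, map_mul, map_inv]
    refine ⟨e.symm g, ?_, ?_⟩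
    · rw [he']
      show _ ∈ Subgroup.centralizer ({d'} : Set L)
      rw [hd', ← centralizer_comap]
      exact ⟨_, hg, rfl⟩
    · rw [he', hd']
      exact fun h => hg' (e.symm.injective h)
  obtain ⟨ψ'⟩ := he
  refine ⟨⟨conjugatesOf d', CfsgLib.FischerRecog58.recog22
    (CfsgLib.FischerRecog58.hyp_of d' hord hq F hF ψ' hw)⟩, d', hord, hq,
    ⟨F, iF, iFt, hF, hn, ⟨ψ'⟩⟩, hw⟩

end CfsgLib.AutLf85
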